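import Mathlib

/-!
# A pair of symmetric matrices with the smallest possible common orthogonal group (helper447, for S3499)

`EE` the exchange matrix, `RR` the shifted one: `a RR = RR d`, `d EE = EE a`, `aᵀ d = 1` (characteristic not two) imply that `a = d`
is `1` or `-1`.
-/

set_option autoImplicit false

namespace Cfsg.Agent.H447.EP

open Matrix

variable {F : Type*} [Field F] {k : ℕ}

/-- the exchange matrix -/
def EE (k : ℕ) (F : Type*) [Field F] : Matrix (Fin k) (Fin k) F := Matrix.of fun i j => if (i : ℕ) + j + 1 = k then 1 else 0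

/-- the shifted exchange matrix -/
def RR (k : ℕ) (F : Type*) [Field F] : Matrix (Fin k) (Fin k) F := Matrix.of fun i j => if (i : ℕ) + j + 2 = k then 1 else 0

/-- the nilpotent Jordan block -/
def NN (k : ℕ) (F : Type*) [Field F] : Matrix (Fin k) (Fin k) F := Matrix.of fun i j => if (i : ℕ) + 1 = j then 1 else 0

theorem EE_apply (i j : Fin k) : EE k F i j = if (i : ℕ) + j + 1 = k then 1 else 0 := rfl

theorem RR_apply (i j : Fin k) : RR k F i j = if (i : ℕ) + j + 2 = k then 1 else 0 := rfl

theorem NN_apply (i j : Fin k) : NN k F i j = if (i : ℕ) + 1 = j then 1 else 0 := rfl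

theorem EE_symm : (EE k F)ᵀ = EE k F := by
  ext i j
  rw [Matrix.transpose_apply, EE_apply, EE_apply]
  exact if_congr (by omega) rfl rfl

theorem RR_symm : (RR k F)ᵀ = RR k F := by
  ext i j
  rw [Matrix.transpose_apply, RR_apply, RR_apply]
  exact if_congr (by omega) rfl rfl

/-- multiplication by `EE` on the right -/
theorem mul_EE (a : Matrix (Fin k) (Fin k) F) (i j : Fin k) : (a * EE k F) i j = a i j.rev := by
  rw [Matrix.mul_apply, Finset.sum_eq_single j.rev]
  · rw [EE_apply, if_pos (by rw [Fin.val_rev]; omega), mul_one]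
  · intro l _ hl
    rw [EE_apply, if_neg, mul_zero]
    intro h
    apply hl
    apply Fin.ext
    rw [Fin.val_rev]
    omega
  · intro h
    exact absurd (Finset.mem_univ _) h

/-- multiplication by `EE` on the left -/
theorem EE_mul (a : Matrix (Fin k) (Fin k) F) (i j : Fin k) : (EE k F * a) i j = a i.rev j := by
  rw [Matrix.mul_apply, Finset.sum_eq_single i.rev]
  · rw [EE_apply, if_pos (by rw [Fin.val_rev]; omega), one_mul]
  · intro l _ hl
    rw [EE_apply, if_neg, zero_mul]
    intro h
    apply hl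
    apply Fin.ext
    rw [Fin.val_rev]
    omega
  · intro h
    exact absurd (Finset.mem_univ _) h

theorem EE_sq : EE k F * EE k F = 1 := by
  ext i j
  rw [EE_mul, EE_apply, Matrix.one_apply]
  refine if_congr ?_ rfl rfl
  rw [Fin.val_rev, Fin.ext_iff]
  omega

theorem RR_EE : RR k F * EE k F = NN k F := by
  ext i j
  rw [mul_EE, RR_apply, NN_apply]
  refine if_congr ?_ rfl rfl
  rw [Fin.val_rev]
  omega

/-- entries of `a` commuting with the Jordan block -/
theorem toep {a : Matrix (Fin k) (Fin k) F} (h : a * NN k F = NN k F * a) :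
    ∃ α : ℕ → F, ∀ i j : Fin k, a i j = if (i : ℕ) ≤ j then α (j - i) else 0 := by
  have h1 : ∀ (i j i' : Fin k), (i' : ℕ) = i + 1 → (j : ℕ) = 0 → a i' j = 0 := by
    intro i j i' hi hj
    have h2 := congrFun (congrFun h i) j
    rw [Matrix.mul_apply, Matrix.mul_apply, Finset.sum_eq_zero, Finset.sum_eq_single i', NN_apply, if_pos hi.symm,
      one_mul] at h2
    · exact h2.symm
    · intro l _ hl
      rw [NN_apply, if_neg, zero_mul]
      intro h3
      apply hl
      apply Fin.ext
      omega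
    · intro h3
      exact absurd (Finset.mem_univ _) h3
    · intro l _
      rw [NN_apply, if_neg (by omega), mul_zero]
  have h2 : ∀ (i j i' j' : Fin k), (i' : ℕ) = i + 1 → (j' : ℕ) = j + 1 → a i' j' = a i j := by
    intro i j i' j' hi hj
    have h2 := congrFun (congrFun h i) j'
    rw [Matrix.mul_apply, Matrix.mul_apply, Finset.sum_eq_single j, Finset.sum_eq_single i', NN_apply, if_pos hj.symm,
      NN_apply, if_pos hi.symm, one_mul, mul_one] at h2
    · exact h2.symm
    · intro l _ hl
      rw [NN_apply, if_neg, zero_mul]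
      intro h3
      apply hl
      apply Fin.ext
      omega
    · intro h3
      exact absurd (Finset.mem_univ _) h3
    · intro l _ hl
      rw [NN_apply, if_neg, mul_zero]
      intro h3
      apply hl
      apply Fin.ext
      omega
    · intro h3
      exact absurd (Finset.mem_univ _) h3
  refine ⟨fun t => if h : 0 < k ∧ t < k then a ⟨0, h.1⟩ ⟨t, h.2⟩ else 0, fun i j => ?_⟩
  obtain ⟨i, hi⟩ := i
  induction i generalizing j with
  | zero =>
    rw [if_pos (Nat.zero_le _)]
    show a ⟨0, hi⟩ j = if h : 0 < k ∧ (j : ℕ) - 0 < k then a ⟨0, h.1⟩ ⟨(j : ℕ) - 0, h.2⟩ else 0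
    rw [dif_pos ⟨hi, by omega⟩]
    rfl
  | succ i ih =>
    obtain ⟨j, hj⟩ := j
    rcases j with _ | j
    · rw [h1 ⟨i, by omega⟩ ⟨0, hj⟩ ⟨i + 1, hi⟩ rfl rfl, if_neg (by simp)]
    · rw [h2 ⟨i, by omega⟩ ⟨j, by omega⟩ ⟨i + 1, hi⟩ ⟨j + 1, hj⟩ rfl rfl, ih ⟨j, by omega⟩ (by omega)]
      refine if_congr (by simp) ?_ rfl
      simp

/-- **the common orthogonal group** -/
theorem eq_smul_one (h2 : (2 : F) ≠ 0) {a : Matrix (Fin k) (Fin k) F} (h : a * NN k F = NN k F * a)
    (ho : aᵀ * EE k F * a = EE k F) : ∃ c : F, a = c • (1 : Matrix (Fin k) (Fin k) F) := by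
  obtain ⟨α, hα⟩ := toep h
  have h3 : ∀ i : ℕ, i < k → ∑ l ∈ Finset.range (i + 1), α (i - l) * α l = if i = 0 then 1 else 0 := by
    intro i hi
    have h4 := congrFun (congrFun ho ⟨i, hi⟩) ⟨k - 1, by omega⟩
    rw [Matrix.mul_assoc, Matrix.mul_apply, EE_apply] at h4
    have h5 : (if (((⟨i, hi⟩ : Fin k) : ℕ)) + ((⟨k - 1, by omega⟩ : Fin k) : ℕ) + 1 = k then (1 : F) else 0) =
        if i = 0 then 1 else 0 := if_congr (by show i + (k - 1) + 1 = k ↔ i = 0; omega) rfl rfl
    rw [h5] at h4
    rw [← h4]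
    have h6 : ∀ l : Fin k, aᵀ ⟨i, hi⟩ l * (EE k F * a) l ⟨k - 1, by omega⟩ = if (l : ℕ) ≤ i then α (i - l) * α l else 0 := by
      intro l
      rw [EE_mul, Matrix.transpose_apply, hα, hα]
      have h7 : ((l.rev : Fin k) : ℕ) ≤ ((⟨k - 1, by omega⟩ : Fin k) : ℕ) := by
        show (l.rev : ℕ) ≤ k - 1
        omega
      rw [if_pos h7]
      have h8 : ((⟨k - 1, by omega⟩ : Fin k) : ℕ) - (l.rev : Fin k) = l := by
        show k - 1 - (l.rev : ℕ) = l
        rw [Fin.val_rev]
        omega
      rw [h8]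
      by_cases h9 : (l : ℕ) ≤ i
      · rw [if_pos h9, if_pos h9]
      · rw [if_neg h9, if_neg h9, zero_mul]
    rw [Finset.sum_congr rfl fun l _ => h6 l, Fin.sum_univ_eq_sum_range (fun l => if l ≤ i then α (i - l) * α l else 0) k,
      ← Finset.sum_filter]
    refine Finset.sum_congr ?_ fun _ _ => rfl
    ext l
    simp only [Finset.mem_range, Finset.mem_filter]
    omega
  have h4 : ∀ i : ℕ, 0 < i → i < k → α i = 0 := by
    intro i
    induction i using Nat.strong_induction_on with
    | _ i ih =>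
      intro hi0 hi
      have h5 := h3 i hi
      have h50 := h3 0 (by omega)
      rw [if_pos rfl, Finset.sum_range_one] at h50
      rw [if_neg (by omega), Finset.sum_range_succ, Finset.sum_range_eq_add_Ico _ hi0, Finset.sum_eq_zero, add_zero,
        Nat.sub_self, Nat.sub_zero] at h5
      · have h6 : (2 : F) * α 0 * α i = 0 := by linear_combination h5
        have h7 : α 0 ≠ 0 := by
          intro h8
          rw [Nat.sub_zero, h8, zero_mul] at h50
          exact zero_ne_one h50
        exact (mul_eq_zero.1 h6).resolve_left (mul_ne_zero h2 h7)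
      · intro l hl
        rw [Finset.mem_Ico] at hl
        rw [ih l hl.2 (by omega) (by omega), mul_zero]
  refine ⟨α 0, ?_⟩
  ext i j
  rw [hα, Matrix.smul_apply, Matrix.one_apply, smul_eq_mul]
  by_cases h5 : i = j
  · rw [h5, if_pos le_rfl, if_pos rfl, Nat.sub_self, mul_one]
  · rw [if_neg h5, mul_zero]
    by_cases h6 : (i : ℕ) ≤ j
    · rw [if_pos h6]
      apply h4
      · have h7 : (i : ℕ) ≠ j := fun h => h5 (Fin.ext h)
        omega
      · omega
    · rw [if_neg h6]

/-- the form used for the four subspaces -/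
theorem eq_smul_one' (h2 : (2 : F) ≠ 0) {a d : Matrix (Fin k) (Fin k) F} (h1 : a * RR k F = RR k F * d)
    (h3 : d * EE k F = EE k F * a) (h4 : aᵀ * d = 1) :
    ∃ c : F, a = c • (1 : Matrix (Fin k) (Fin k) F) ∧ d = c • (1 : Matrix (Fin k) (Fin k) F) := by
  have e1 : d = EE k F * a * EE k F := by
    rw [← h3, Matrix.mul_assoc, EE_sq, Matrix.mul_one]
  have e2 : a * NN k F = NN k F * a := by
    rw [← RR_EE, ← Matrix.mul_assoc, h1, Matrix.mul_assoc, h3, ← Matrix.mul_assoc]
  have e3 : aᵀ * EE k F * a = EE k F := by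
    have h5 : aᵀ * (EE k F * a * EE k F) * EE k F = EE k F := by rw [← e1, h4, Matrix.one_mul]
    rw [Matrix.mul_assoc (EE k F), Matrix.mul_assoc, Matrix.mul_assoc, Matrix.mul_assoc a, EE_sq, Matrix.mul_one] at h5
    rw [Matrix.mul_assoc]
    exact h5
  obtain ⟨c, hc⟩ := eq_smul_one h2 e2 e3
  refine ⟨c, hc, ?_⟩
  rw [e1, hc, Matrix.mul_smul, Matrix.mul_one, Matrix.smul_mul, EE_sq]

end Cfsg.Agent.H447.EP
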