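import Cfsg.Agent.H875.SpPair
import Cfsg.Agent.H875.SpDec
import Cfsg.Agent.H447.EP.Toep

/-!
# A symplectic basis adapted to a pair of complementary totally singular subspaces (helper447, S3499)
-/

set_option autoImplicit false

namespace Cfsg.Agent.H447.EP

open Cfsg Cfsg.Geo Cfsg.Agent.H875 Cfsg.Agent.ClassicalGeometry.SympBasic Cfsg.Agent.ClassicalGeometry.SympSiegel
open scoped Matrix MatrixGroups

variable {F : Type*} [Field F] {k : ℕ}

local notation "V" => (Fin k ⊕ Fin k → F)
local notation "fm" => sympForm k F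

theorem lpair_of {D : Fin 2 → Submodule F V} (hD : IsMDecomposition k D)
    (hts : ∀ i, IsTotallySingularFor (sympForm k F) (D i)) : LPair (D 0) (D 1) := by
  obtain ⟨P, hP⟩ := exists_isProj hD.indep hD.iSup_eq_top
  refine ⟨hts 0, hts 1, fun v => ⟨P 0 v, hP.mem 0 v, P 1 v, hP.mem 1 v, ?_⟩⟩
  rw [← Fin.sum_univ_two (fun i => P i v), hP.sum v]

/-- **the adapted frame** -/
theorem exists_frame {D : Fin 2 → Submodule F V} (hD : IsMDecomposition k D)
    (hts : ∀ i, IsTotallySingularFor (sympForm k F) (D i)) :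
    ∃ P ∈ spGL k F, (∀ v : V, (P : Matrix (Fin k ⊕ Fin k) (Fin k ⊕ Fin k) F) *ᵥ v ∈ D 0 ↔ ∀ i, v (Sum.inr i) = 0) ∧
      ∀ v : V, (P : Matrix (Fin k ⊕ Fin k) (Fin k ⊕ Fin k) F) *ᵥ v ∈ D 1 ↔ ∀ i, v (Sum.inl i) = 0 := by
  classical
  have h := lpair_of hD hts
  have hd0 : Module.finrank F (D 0) = k := hD.finrank_eq 0
  have hd1 : Module.finrank F (D 1) = k := hD.finrank_eq 1
  -- the pairing
  let θ : D 1 →ₗ[F] Module.Dual F (D 0) :=
    { toFun := fun q => ((sympBilin k F).flip q).comp (D 0).subtype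
      map_add' := fun q q' => by ext x; simp
      map_smul' := fun c q => by ext x; simp }
  have hθ : ∀ (q : D 1) (x : D 0), θ q x = fm x q := fun q x => rfl
  have hθinj : Function.Injective θ := by
    rw [injective_iff_map_eq_zero]
    intro q hq
    apply Subtype.ext
    apply h.symm.eq_zero q.2
    intro x hx
    have := congrArg (fun l : Module.Dual F (D 0) => l ⟨x, hx⟩) hq
    simp only [hθ, LinearMap.zero_apply] at this
    exact form_eq_zero_comm.1 this
  let θe : D 1 ≃ₗ[F] Module.Dual F (D 0) :=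
    LinearMap.linearEquivOfInjective θ hθinj (by rw [Subspace.dual_finrank_eq, hd0, hd1])
  have hθe : ∀ (q : D 1) (x : D 0), θe q x = fm x q := fun q x => rfl
  let b : Module.Basis (Fin k) F (D 0) := Module.finBasisOfFinrankEq F (D 0) hd0
  let c : Module.Basis (Fin k) F (D 1) := b.dualBasis.map θe.symm
  have hbc : ∀ i j, fm (b i : V) (c j : V) = if i = j then 1 else 0 := by
    intro i j
    rw [← hθe, Module.Basis.map_apply, LinearEquiv.apply_symm_apply, Module.Basis.dualBasis_apply_self]
  -- the linear map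
  let S : V →ₗ[F] V :=
    { toFun := fun v => (∑ i, v (Sum.inl i) • (b i : V)) - ∑ i, v (Sum.inr i) • (c i : V)
      map_add' := fun u v => by
        simp only [Pi.add_apply, add_smul, Finset.sum_add_distrib]
        abel
      map_smul' := fun a v => by
        simp only [Pi.smul_apply, smul_eq_mul, mul_smul, ← Finset.smul_sum, RingHom.id_apply, smul_sub] }
  have hS : ∀ v, S v = (∑ i, v (Sum.inl i) • (b i : V)) - ∑ i, v (Sum.inr i) • (c i : V) := fun v => rfl
  have hiso : ∀ u v, fm (S u) (S v) = fm u v := by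
    intro u v
    have e1 : ∀ w : V, (∑ i, w (Sum.inl i) • (b i : V)) ∈ D 0 := fun w =>
      (D 0).sum_mem fun i _ => (D 0).smul_mem _ (b i).2
    have e2 : ∀ w : V, (∑ i, w (Sum.inr i) • (c i : V)) ∈ D 1 := fun w =>
      (D 1).sum_mem fun i _ => (D 1).smul_mem _ (c i).2
    have e3 : ∀ u v : V, fm (∑ i, u (Sum.inl i) • (b i : V)) (∑ i, v (Sum.inr i) • (c i : V)) =
        ∑ i, u (Sum.inl i) * v (Sum.inr i) := by
      intro u v
      have h1 : ∀ w : V, fm (∑ i, u (Sum.inl i) • (b i : V)) w = ∑ i, u (Sum.inl i) * fm (b i : V) w := by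
        intro w
        rw [← sympBilin_apply, map_sum, LinearMap.sum_apply]
        refine Finset.sum_congr rfl fun i _ => ?_
        rw [map_smul, LinearMap.smul_apply, smul_eq_mul, sympBilin_apply]
      rw [h1]
      refine Finset.sum_congr rfl fun i _ => ?_
      congr 1
      rw [← sympBilin_apply, map_sum, Finset.sum_eq_single i]
      · rw [map_smul, sympBilin_apply, hbc, if_pos rfl, smul_eq_mul, mul_one]
      · intro j _ hj
        rw [map_smul, sympBilin_apply, hbc, if_neg (Ne.symm hj), smul_zero]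
      · intro h
        exact absurd (Finset.mem_univ _) h
    rw [hS, hS, sympForm_sub_left, sympForm_sub_right, sympForm_sub_right, h.iso _ (e1 u) _ (e1 v),
      h.iso' _ (e2 u) _ (e2 v), e3, sympForm_swap (∑ i, u (Sum.inr i) • (c i : V)), e3, sympForm_eq_sum,
      Finset.sum_sub_distrib]
    have e4 : ∑ i, v (Sum.inl i) * u (Sum.inr i) = ∑ i, u (Sum.inr i) * v (Sum.inl i) :=
      Finset.sum_congr rfl fun i _ => mul_comm _ _
    rw [e4]
    ring
  refine ⟨toGL k F (ofIso S hiso), toGL_mem_spGL _, fun v => ?_, fun v => ?_⟩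
  · rw [toGL_mulVec, ofIso_smul, hS]
    constructor
    · intro hv
      have h1 : (∑ i, v (Sum.inr i) • (c i : V)) ∈ D 0 := by
        have h2 := (D 0).sub_mem ((D 0).sum_mem fun i (_ : i ∈ Finset.univ) => (D 0).smul_mem (v (Sum.inl i)) (b i).2) hv
        rw [sub_sub_cancel] at h2
        exact h2
      have h2 := h.disjoint h1 ((D 1).sum_mem fun i (_ : i ∈ Finset.univ) => (D 1).smul_mem (v (Sum.inr i)) (c i).2)
      have h3 : ∑ i, v (Sum.inr i) • c i = 0 := Subtype.ext (by push_cast; exact h2)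
      exact fun i => Fintype.linearIndependent_iff.1 c.linearIndependent (fun i => v (Sum.inr i)) h3 i
    · intro hv
      rw [Finset.sum_eq_zero (s := Finset.univ) (f := fun i => v (Sum.inr i) • (c i : V)) fun i _ => by rw [hv i, zero_smul],
        sub_zero]
      exact (D 0).sum_mem fun i _ => (D 0).smul_mem _ (b i).2
  · rw [toGL_mulVec, ofIso_smul, hS]
    constructor
    · intro hv
      have h1 : (∑ i, v (Sum.inl i) • (b i : V)) ∈ D 1 := by
        have h2 := (D 1).add_mem hv ((D 1).sum_mem fun i (_ : i ∈ Finset.univ) => (D 1).smul_mem (v (Sum.inr i)) (c i).2)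
        rw [sub_add_cancel] at h2
        exact h2
      have h2 := h.disjoint ((D 0).sum_mem fun i (_ : i ∈ Finset.univ) => (D 0).smul_mem (v (Sum.inl i)) (b i).2) h1
      have h3 : ∑ i, v (Sum.inl i) • b i = 0 := Subtype.ext (by push_cast; exact h2)
      exact fun i => Fintype.linearIndependent_iff.1 b.linearIndependent (fun i => v (Sum.inl i)) h3 i
    · intro hv
      rw [Finset.sum_eq_zero (s := Finset.univ) (f := fun i => v (Sum.inl i) • (b i : V)) fun i _ => by rw [hv i, zero_smul],
        zero_sub]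
      exact (D 1).neg_mem ((D 1).sum_mem fun i _ => (D 1).smul_mem _ (c i).2)

end Cfsg.Agent.H447.EP
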