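import Cfsg.Agent.H419.EP.Iface
import Cfsg.Agent.H447.EP.Small
import Cfsg.Agent.H447.EP.PairFrame

/-!
# S3499: the stabiliser of a pair of complementary totally singular subspaces in `Sp_2k(q)`, `q` odd (helper447)

An explicit `x` for which `A ∩ A^x` has order at most four; `A` is not metabelian.
-/

set_option autoImplicit false

namespace Cfsg.Agent.H447.EP

open Subgroup Cfsg Cfsg.Geo Cfsg.Agent.H875 Cfsg.Agent.H284 Cfsg.Agent.H419.EP
open Cfsg.Agent.ClassicalGeometry.SympBasic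
open scoped Matrix MatrixGroups commutatorElement

variable {F : Type*} [Field F] {k : ℕ}

local notation "V" => (Fin k ⊕ Fin k → F)
local notation "GLk" => GL (Fin k ⊕ Fin k) F
local notation "Mk" => Matrix (Fin k ⊕ Fin k) (Fin k ⊕ Fin k) F

theorem mem_spGL_iff_fromBlocks {g : GLk} {a b c d : Matrix (Fin k) (Fin k) F}
    (hg : (g : Mk) = Matrix.fromBlocks a b c d) :
    g ∈ spGL k F ↔ aᵀ * c = cᵀ * a ∧ bᵀ * d = dᵀ * b ∧ aᵀ * d - cᵀ * b = 1 := by
  rw [mem_spGL_iff, ← mem_symplecticGroup_iff, hg]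
  exact SymplecticGroup.fromBlocks_mem_iff

/-- the explicit element -/
noncomputable def x0 (k : ℕ) (F : Type*) [Field F] : GL (Fin k ⊕ Fin k) F where
  val := Matrix.fromBlocks 1 (RR k F) (EE k F) (1 + EE k F * RR k F)
  inv := Matrix.fromBlocks (1 + RR k F * EE k F) (-RR k F) (-EE k F) 1
  val_inv := by
    rw [Matrix.fromBlocks_multiply, ← Matrix.fromBlocks_one]
    congr 1 <;> noncomm_ring
  inv_val := by
    rw [Matrix.fromBlocks_multiply, ← Matrix.fromBlocks_one]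
    congr 1 <;> noncomm_ring

theorem x0_val : ((x0 k F : GLk) : Mk) = Matrix.fromBlocks 1 (RR k F) (EE k F) (1 + EE k F * RR k F) := rfl

theorem x0_mem : x0 k F ∈ spGL k F := by
  rw [mem_spGL_iff_fromBlocks x0_val, EE_symm, RR_symm, Matrix.transpose_one, Matrix.transpose_add, Matrix.transpose_mul,
    EE_symm, RR_symm, Matrix.transpose_one]
  refine ⟨by rw [one_mul, mul_one], by noncomm_ring, by noncomm_ring⟩

/-- `g` fixes both subspaces of the standard pair -/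
def BD (g : GLk) : Prop :=
  (∀ v : V, (∀ i, v (Sum.inr i) = 0) → ∀ i, ((g : Mk) *ᵥ v) (Sum.inr i) = 0) ∧
    ∀ v : V, (∀ i, v (Sum.inl i) = 0) → ∀ i, ((g : Mk) *ᵥ v) (Sum.inl i) = 0

theorem BD.eq {g : GLk} (h : BD g) : ∃ a d : Matrix (Fin k) (Fin k) F, (g : Mk) = Matrix.fromBlocks a 0 0 d := by
  refine ⟨(g : Mk).toBlocks₁₁, (g : Mk).toBlocks₂₂, ?_⟩
  conv_lhs => rw [← Matrix.fromBlocks_toBlocks (g : Mk)]
  congr 1
  · ext i j
    have h1 := h.2 (Pi.single (Sum.inr j) 1) (fun l => by simp) i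
    rw [Matrix.mulVec_single_one] at h1
    exact h1
  · ext i j
    have h1 := h.1 (Pi.single (Sum.inl j) 1) (fun l => by simp) i
    rw [Matrix.mulVec_single_one] at h1
    exact h1

/-- **the stabilizer of the four subspaces** -/
theorem four (h2 : (2 : F) ≠ 0) {u : GLk} (hu : u ∈ spGL k F) (h1 : BD u) (h3 : BD ((x0 k F)⁻¹ * u * x0 k F)) :
    u ∈ scalars (Fin k ⊕ Fin k) F := by
  obtain ⟨a, d, e1⟩ := h1.eq
  obtain ⟨a', d', e2⟩ := h3.eq
  have e3 : (u : Mk) * (x0 k F : GLk) = (x0 k F : GLk) * (((x0 k F)⁻¹ * u * x0 k F : GLk) : Mk) := by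
    rw [← Units.val_mul, ← Units.val_mul]
    congr 1
    group
  rw [e1, e2, x0_val, Matrix.fromBlocks_multiply, Matrix.fromBlocks_multiply, Matrix.fromBlocks_inj] at e3
  obtain ⟨f1, f2, f3, f4⟩ := e3
  have g1 : a = a' := by simpa using f1
  subst g1
  have g2 : a * RR k F = RR k F * d' := by simpa using f2
  have g3 : d * EE k F = EE k F * a := by simpa using f3
  have g4 : d = d' := by
    have h5 : d * (1 + EE k F * RR k F) = (1 + EE k F * RR k F) * d' := by simpa using f4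
    have h6 : d * (1 + EE k F * RR k F) = d + EE k F * (a * RR k F) := by
      rw [mul_add, mul_one, ← mul_assoc, g3, mul_assoc]
    rw [h6, g2, add_mul, one_mul, mul_assoc] at h5
    exact add_right_cancel h5
  subst g4
  have g5 : aᵀ * d = 1 := by
    have h5 := ((mem_spGL_iff_fromBlocks e1).1 hu).2.2
    simpa using h5
  obtain ⟨c, hc1, hc2⟩ := eq_smul_one' h2 g2 g3 g5
  have e4 : (u : Mk) = c • (1 : Mk) := by
    rw [e1, hc1, hc2, ← Matrix.fromBlocks_one, Matrix.fromBlocks_smul, smul_zero]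
  rw [mem_scalars_iff]
  by_cases hc : c = 0
  · rw [hc, zero_smul] at e4
    have h6 : ((u * u⁻¹ : GLk) : Mk) = 0 := by rw [Units.val_mul, e4, zero_mul]
    rw [mul_inv_cancel, Units.val_one] at h6
    refine ⟨1, ?_⟩
    rw [e4, h6, smul_zero]
  · exact ⟨Units.mk0 c hc, e4⟩

/-- the embedding of `GL_k` -/
noncomputable def lv : GL (Fin k) F →* GLk where
  toFun g := ⟨Matrix.fromBlocks (g : Matrix (Fin k) (Fin k) F) 0 0 ((g⁻¹ : GL (Fin k) F) : Matrix (Fin k) (Fin k) F)ᵀ,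
    Matrix.fromBlocks ((g⁻¹ : GL (Fin k) F) : Matrix (Fin k) (Fin k) F) 0 0 (g : Matrix (Fin k) (Fin k) F)ᵀ, by
      rw [Matrix.fromBlocks_multiply, ← Matrix.fromBlocks_one, ← Matrix.transpose_mul, ← Units.val_mul,
        mul_inv_cancel]
      simp, by
      rw [Matrix.fromBlocks_multiply, ← Matrix.fromBlocks_one, ← Matrix.transpose_mul, ← Units.val_mul,
        inv_mul_cancel]
      simp⟩
  map_one' := by
    apply Units.ext
    show Matrix.fromBlocks _ _ _ _ = _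
    rw [inv_one, Units.val_one, Matrix.transpose_one, Matrix.fromBlocks_one, Units.val_one]
  map_mul' := fun g h => by
    apply Units.ext
    show Matrix.fromBlocks ((g * h : GL (Fin k) F) : Matrix (Fin k) (Fin k) F) 0 0
        (((g * h)⁻¹ : GL (Fin k) F) : Matrix (Fin k) (Fin k) F)ᵀ =
      Matrix.fromBlocks (g : Matrix (Fin k) (Fin k) F) 0 0 ((g⁻¹ : GL (Fin k) F) : Matrix (Fin k) (Fin k) F)ᵀ *
        Matrix.fromBlocks (h : Matrix (Fin k) (Fin k) F) 0 0 ((h⁻¹ : GL (Fin k) F) : Matrix (Fin k) (Fin k) F)ᵀ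
    have e : (((g * h)⁻¹ : GL (Fin k) F) : Matrix (Fin k) (Fin k) F) =
        ((h⁻¹ : GL (Fin k) F) : Matrix (Fin k) (Fin k) F) * ((g⁻¹ : GL (Fin k) F) : Matrix (Fin k) (Fin k) F) := by
      rw [mul_inv_rev, Units.val_mul]
    rw [Matrix.fromBlocks_multiply, e, Units.val_mul, Matrix.transpose_mul]
    congr 1
    · rw [Matrix.zero_mul, add_zero]
    · rw [Matrix.mul_zero, Matrix.zero_mul, add_zero]
    · rw [Matrix.mul_zero, Matrix.zero_mul, add_zero]
    · rw [Matrix.zero_mul, zero_add]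

theorem lv_val (g : GL (Fin k) F) : ((lv g : GLk) : Mk) =
    Matrix.fromBlocks (g : Matrix (Fin k) (Fin k) F) 0 0 ((g⁻¹ : GL (Fin k) F) : Matrix (Fin k) (Fin k) F)ᵀ := rfl

theorem lv_mem (g : GL (Fin k) F) : lv g ∈ spGL k F := by
  rw [mem_spGL_iff_fromBlocks (lv_val g)]
  refine ⟨by simp, by simp, ?_⟩
  rw [← Matrix.transpose_mul, ← Units.val_mul, inv_mul_cancel]
  simp

theorem lv_BD (g : GL (Fin k) F) : BD (lv g) := by
  constructor
  · intro v hv i
    rw [lv_val, Matrix.fromBlocks_mulVec]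
    have h1 : v ∘ Sum.inr = 0 := funext hv
    simp [h1]
  · intro v hv i
    rw [lv_val, Matrix.fromBlocks_mulVec]
    have h1 : v ∘ Sum.inl = 0 := funext hv
    simp [h1]

/-! ### two commutators in `GL_k` -/

section comm

variable (i j : Fin k)

/-- the reflection -/
noncomputable def ss (i : Fin k) : GL (Fin k) F where
  val := 1 - (2 : F) • Matrix.single i i 1
  inv := 1 - (2 : F) • Matrix.single i i 1
  val_inv := by
    simp only [sub_mul, mul_sub, one_mul, mul_one, smul_mul_assoc, mul_smul_comm, Matrix.single_mul_single_same]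
    module
  inv_val := by
    simp only [sub_mul, mul_sub, one_mul, mul_one, smul_mul_assoc, mul_smul_comm, Matrix.single_mul_single_same]
    module

theorem sn {i j : Fin k} (h : i ≠ j) :
    Matrix.single i j (1 : F) * Matrix.single i j (1 : F) = (0 : Matrix (Fin k) (Fin k) F) := by
  rw [Matrix.single_mul_single_of_ne]
  exact h.symm

theorem sn' {i j : Fin k} (h : i ≠ j) :
    Matrix.single i j (1 : F) * Matrix.single i i (1 : F) = (0 : Matrix (Fin k) (Fin k) F) := by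
  rw [Matrix.single_mul_single_of_ne]
  exact h.symm

theorem sn'' {i j : Fin k} (h : i ≠ j) :
    Matrix.single i i (1 : F) * Matrix.single j i (1 : F) = (0 : Matrix (Fin k) (Fin k) F) := by
  rw [Matrix.single_mul_single_of_ne]
  exact h

/-- the transvection -/
noncomputable def tt {i j : Fin k} (h : i ≠ j) : GL (Fin k) F where
  val := 1 + Matrix.single i j 1
  inv := 1 - Matrix.single i j 1
  val_inv := by
    simp only [mul_sub, add_mul, one_mul, mul_one, sn h]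
    abel
  inv_val := by
    simp only [sub_mul, mul_add, one_mul, mul_one, sn h]
    abel

variable {i j}

theorem comm_val (h : i ≠ j) : ((⁅(ss i : GL (Fin k) F), tt h⁆ : GL (Fin k) F) : Matrix (Fin k) (Fin k) F) =
    1 - (2 : F) • Matrix.single i j 1 := by
  rw [commutatorElement_def, Units.val_mul, Units.val_mul, Units.val_mul]
  show (1 - (2 : F) • Matrix.single i i 1) * (1 + Matrix.single i j 1) * (1 - (2 : F) • Matrix.single i i 1) *
    (1 - Matrix.single i j 1) = _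
  simp only [sub_mul, mul_sub, add_mul, mul_add, one_mul, mul_one, smul_mul_assoc, mul_smul_comm,
    Matrix.single_mul_single_same, sn h, sn' h, mul_one, smul_zero, zero_mul]
  module

theorem comm_val' (h : j ≠ i) : ((⁅(ss i : GL (Fin k) F), tt h⁆ : GL (Fin k) F) : Matrix (Fin k) (Fin k) F) =
    1 - (2 : F) • Matrix.single j i 1 := by
  rw [commutatorElement_def, Units.val_mul, Units.val_mul, Units.val_mul]
  show (1 - (2 : F) • Matrix.single i i 1) * (1 + Matrix.single j i 1) * (1 - (2 : F) • Matrix.single i i 1) *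
    (1 - Matrix.single j i 1) = _
  simp only [sub_mul, mul_sub, add_mul, mul_add, one_mul, mul_one, smul_mul_assoc, mul_smul_comm,
    Matrix.single_mul_single_same, sn h, sn'' h.symm, mul_one, smul_zero, zero_mul]
  module

/-- they do not commute modulo scalars -/
theorem not_comm (h2 : (2 : F) ≠ 0) (h : i ≠ j) (c : F) :
    (1 - (2 : F) • Matrix.single i j 1) * (1 - (2 : F) • Matrix.single j i 1) ≠
      c • ((1 - (2 : F) • Matrix.single j i 1) * (1 - (2 : F) • Matrix.single i j 1) : Matrix (Fin k) (Fin k) F) := by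
  intro e
  have e1 := congrFun (congrFun e i) j
  have e2 := congrFun (congrFun e i) i
  simp only [sub_mul, mul_sub, one_mul, mul_one, smul_mul_assoc, mul_smul_comm, Matrix.single_mul_single_same,
    Matrix.sub_apply, Matrix.smul_apply, Matrix.one_apply, Matrix.single_apply, smul_eq_mul] at e1 e2
  simp [h, h.symm] at e1 e2
  have hc : c = 1 := mul_right_cancel₀ h2 (by rw [one_mul]; exact e1.symm)
  rw [hc] at e2
  have h4 : (2 : F) * 2 = 0 := by linear_combination e2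
  exact h2 (mul_self_eq_zero.1 h4)

end comm

/-! ### the pair of subspaces -/

theorem mv (a b c : GLk) (h : a * b = c) (v : V) : (a : Mk) *ᵥ ((b : Mk) *ᵥ v) = (c : Mk) *ᵥ v := by
  have e : (a : Mk) * (b : Mk) = (c : Mk) := by rw [← Units.val_mul, h]
  rw [Matrix.mulVec_mulVec, e]

section pair

variable {D : Fin 2 → Submodule F (Fin k ⊕ Fin k → F)} {P : GL (Fin k ⊕ Fin k) F}
  (hP0 : ∀ v : (Fin k ⊕ Fin k → F), (P : Matrix (Fin k ⊕ Fin k) (Fin k ⊕ Fin k) F) *ᵥ v ∈ D 0 ↔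
    ∀ i, v (Sum.inr i) = 0)
  (hP1 : ∀ v : (Fin k ⊕ Fin k → F), (P : Matrix (Fin k ⊕ Fin k) (Fin k ⊕ Fin k) F) *ᵥ v ∈ D 1 ↔
    ∀ i, v (Sum.inl i) = 0)

include hP0 hP1

theorem BD_of_fix {u : GLk} (hu : ∀ i, (D i).map (Matrix.toLin' (u : Mk)) = D i) : BD (P⁻¹ * u * P) := by
  have key : ∀ v : V, (P : Mk) *ᵥ (((P⁻¹ * u * P : GLk) : Mk) *ᵥ v) = (u : Mk) *ᵥ ((P : Mk) *ᵥ v) := by
    intro v
    rw [mv P (P⁻¹ * u * P) (u * P) (by group), mv u P (u * P) rfl]
  have hm : ∀ i, ∀ w ∈ D i, (u : Mk) *ᵥ w ∈ D i := by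
    intro i w hw
    rw [← hu i]
    exact ⟨w, hw, Matrix.toLin'_apply _ _⟩
  constructor
  · intro v hv
    rw [← hP0, key]
    exact hm 0 _ ((hP0 v).2 hv)
  · intro v hv
    rw [← hP1, key]
    exact hm 1 _ ((hP1 v).2 hv)

theorem stab_of {g : GLk} (h1 : BD g) (h2 : BD g⁻¹) : P * g * P⁻¹ ∈ decompositionStabilizer D := by
  have hm : ∀ {g : GLk}, BD g → ∀ i, ∀ w ∈ D i, ((P * g * P⁻¹ : GLk) : Mk) *ᵥ w ∈ D i := by
    intro g h1 i w hw
    have e1 : (P : Mk) *ᵥ (((P⁻¹ : GLk) : Mk) *ᵥ w) = w := by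
      rw [mv P P⁻¹ 1 (mul_inv_cancel P), Units.val_one, Matrix.one_mulVec]
    have e2 : ((P * g * P⁻¹ : GLk) : Mk) *ᵥ w = (P : Mk) *ᵥ ((g : Mk) *ᵥ (((P⁻¹ : GLk) : Mk) *ᵥ w)) := by
      rw [mv g P⁻¹ (g * P⁻¹) rfl, mv P (g * P⁻¹) (P * g * P⁻¹) (by group)]
    rw [e2]
    rw [← e1] at hw
    obtain rfl | rfl : i = 0 ∨ i = 1 := by omega
    · rw [hP0] at hw ⊢
      exact h1.1 _ hw
    · rw [hP1] at hw ⊢
      exact h1.2 _ hw
  refine ⟨1, fun i => ?_⟩
  rw [Equiv.Perm.one_apply]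
  apply le_antisymm
  · rintro _ ⟨w, hw, rfl⟩
    rw [Matrix.toLin'_apply]
    exact hm h1 i w hw
  · intro w hw
    refine ⟨((P * g⁻¹ * P⁻¹ : GLk) : Mk) *ᵥ w, hm h2 i w hw, ?_⟩
    rw [Matrix.toLin'_apply, mv (P * g * P⁻¹) (P * g⁻¹ * P⁻¹) 1 (by group), Units.val_one, Matrix.one_mulVec]

theorem x_not_mem (hk : 0 < k) : P * x0 k F * P⁻¹ ∉ decompositionStabilizer D := by
  rintro ⟨σ, hσ⟩
  let j : Fin k := ⟨0, hk⟩
  let v : V := Pi.single (Sum.inl j) 1
  have hv : (P : Mk) *ᵥ v ∈ D 0 := (hP0 v).2 fun i => by simp [v]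
  have h1 : ((P * x0 k F * P⁻¹ : GLk) : Mk) *ᵥ ((P : Mk) *ᵥ v) ∈ D (σ 0) := by
    rw [← hσ 0]
    exact ⟨_, hv, Matrix.toLin'_apply _ _⟩
  have e1 : ((P * x0 k F * P⁻¹ : GLk) : Mk) *ᵥ ((P : Mk) *ᵥ v) = (P : Mk) *ᵥ ((x0 k F : Mk) *ᵥ v) := by
    rw [mv (P * x0 k F * P⁻¹) P (P * x0 k F) (by group), mv P (x0 k F) (P * x0 k F) rfl]
  rw [e1] at h1
  have e2 : (x0 k F : Mk) *ᵥ v = (x0 k F : Mk).col (Sum.inl j) := Matrix.mulVec_single_one _ _
  obtain h | h : σ 0 = 0 ∨ σ 0 = 1 := by omega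
  · rw [h, hP0, e2] at h1
    have h2 : ∀ i, EE k F i j = 0 := fun i => h1 i
    have h3 : (EE k F * EE k F) j j = 0 := by
      rw [Matrix.mul_apply]
      exact Finset.sum_eq_zero fun i _ => by rw [h2 i, mul_zero]
    rw [EE_sq, Matrix.one_apply_eq] at h3
    exact one_ne_zero h3
  · rw [h, hP1, e2] at h1
    have h2 : (1 : Matrix (Fin k) (Fin k) F) j j = 0 := h1 j
    rw [Matrix.one_apply_eq] at h2
    exact one_ne_zero h2

end pair

/-- equal permutations -/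
theorem fix_of {t : ℕ} {D : Fin t → Submodule F V} {s s' : GLk} {σ : Equiv.Perm (Fin t)}
    (hs : ∀ i, (D i).map (Matrix.toLin' (s : Mk)) = D (σ i)) (hs' : ∀ i, (D i).map (Matrix.toLin' (s' : Mk)) = D (σ i))
    (i : Fin t) : (D i).map (Matrix.toLin' ((s'⁻¹ * s : GLk) : Mk)) = D i := by
  rw [Units.val_mul, Matrix.toLin'_mul, Submodule.map_comp, hs, ← hs', ← Submodule.map_comp, ← Matrix.toLin'_mul,
    ← Units.val_mul, inv_mul_cancel, Units.val_one, Matrix.toLin'_one, Submodule.map_id]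

theorem scalars_conj {u P : GLk} (h : u ∈ scalars (Fin k ⊕ Fin k) F) : P * u * P⁻¹ ∈ scalars (Fin k ⊕ Fin k) F := by
  have h1 : ∀ w : GLk, u * w = w * u := by
    obtain ⟨c, rfl⟩ := h
    intro w
    apply Units.ext
    show Matrix.scalar _ (c : F) * (w : Mk) = (w : Mk) * Matrix.scalar _ (c : F)
    exact Matrix.scalar_commute _ (Commute.all _) _
  rw [← h1, mul_assoc, mul_inv_cancel, mul_one]
  exact h

/-- **row III-Sp-C2ts** -/
theorem spC2ts {Q : Type*} [Group Q] [Finite Q] (_hs : IsSimpleGroup Q) {A : Subgroup Q} {Γ : Subgroup (MulAut Q)} (h : EPT A Γ)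
    {F : Type*} [Field F] [Fintype F] {k : ℕ} (m : Model Q (spGL k F)) (hk : 2 ≤ k) (_hq : 3 ≤ Fintype.card F) (hodd : Odd (Fintype.card F))
    (D : Fin 2 → Submodule F (Fin k ⊕ Fin k → F)) (hD : IsMDecomposition k D)
    (hts : ∀ i, IsTotallySingularFor (sympForm k F) (D i)) (hA : m.hat A ≤ decompositionStabilizer D) : False := by
  classical
  have h2 : (2 : F) ≠ 0 := by
    intro h0
    have h3 : ringChar F = 2 := by
      have h4 : ringChar F ∣ 2 := (ringChar.spec F 2).1 (by exact_mod_cast h0)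
      rcases (Nat.dvd_prime Nat.prime_two).1 h4 with h5 | h5
      · exact absurd h5 (CharP.ringChar_ne_one)
      · exact h5
    have h6 := FiniteField.even_card_iff_char_two.1 h3
    rw [Nat.odd_iff] at hodd
    omega
  obtain ⟨P, hP, hP0, hP1⟩ := exists_frame hD hts
  have hsc : ∀ {u P : GL (Fin k ⊕ Fin k) F}, u ∈ scalars (Fin k ⊕ Fin k) F → P * u * P⁻¹ ∈ scalars (Fin k ⊕ Fin k) F :=
    fun h => scalars_conj h
  -- the element
  let xx : GL (Fin k ⊕ Fin k) F := P * x0 k F * P⁻¹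
  have hxx : xx ∈ spGL k F := (spGL k F).mul_mem ((spGL k F).mul_mem hP x0_mem) ((spGL k F).inv_mem hP)
  have hxD : xx ∉ decompositionStabilizer D := x_not_mem hP0 hP1 (by omega)
  let x : spGL k F := ⟨xx, hxx⟩
  have hxA : m.π x ∉ A := fun hx => hxD (hA ((m.mem_hat_iff x).2 hx))
  -- the hat
  have hmax := m.isMaximalIn h.max
  have hhat : m.hat A = decompositionStabilizer D ⊓ spGL k F := by
    rcases hmax.2 (decompositionStabilizer D ⊓ spGL k F) (le_inf hA (m.hat_le A)) inf_le_right with h1 | h1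
    · exact h1.symm
    · have h3 : xx ∈ decompositionStabilizer D ⊓ spGL k F := by rw [h1]; exact hxx
      exact absurd h3.1 hxD
  -- elements of `A`
  have hmem : ∀ g : GL (Fin k) F, ∃ s : spGL k F, (s : GL (Fin k ⊕ Fin k) F) = P * lv g * P⁻¹ ∧ m.π s ∈ A := by
    intro g
    have h1 : P * lv g * P⁻¹ ∈ spGL k F := (spGL k F).mul_mem ((spGL k F).mul_mem hP (lv_mem g)) ((spGL k F).inv_mem hP)
    refine ⟨⟨_, h1⟩, rfl, ?_⟩
    rw [← m.mem_hat_iff, hhat]
    refine ⟨stab_of hP0 hP1 (lv_BD g) ?_, h1⟩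
    rw [← map_inv]
    exact lv_BD _
  -- the two point stabilizer
  have hcard : Nat.card (A ⊓ cj (m.π x) A : Subgroup Q) ≤ 4 := by
    have hl : ∀ t : (A ⊓ cj (m.π x) A : Subgroup Q), ∃ s : spGL k F, m.π s = t ∧ ∃ σ τ : Equiv.Perm (Fin 2),
        (∀ i, (D i).map (Matrix.toLin' ((s : GL (Fin k ⊕ Fin k) F) : Matrix (Fin k ⊕ Fin k) (Fin k ⊕ Fin k) F)) =
          D (σ i)) ∧ ∀ i, (D i).map (Matrix.toLin' ((xx⁻¹ * s * xx : GL (Fin k ⊕ Fin k) F) :
            Matrix (Fin k ⊕ Fin k) (Fin k ⊕ Fin k) F)) = D (τ i) := by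
      rintro ⟨t, ht1, ht2⟩
      obtain ⟨s, rfl⟩ := m.surj t
      obtain ⟨σ, hσ⟩ := hA ((m.mem_hat_iff s).2 ht1)
      have h3 : m.π (x⁻¹ * s * x) ∈ A := by
        rw [map_mul, map_mul, map_inv]
        exact mem_cj.1 ht2
      obtain ⟨τ, hτ⟩ := hA ((m.mem_hat_iff _).2 h3)
      exact ⟨s, rfl, σ, τ, hσ, hτ⟩
    choose s hs σ τ hσ hτ using hl
    have hinj : Function.Injective fun t => (σ t, τ t) := by
      intro t t' e
      obtain ⟨e1, e2⟩ := Prod.mk.inj e
      have h3 : ∀ i, (D i).map (Matrix.toLin' (((s t' : GL (Fin k ⊕ Fin k) F)⁻¹ * s t : GL (Fin k ⊕ Fin k) F) :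
          Matrix (Fin k ⊕ Fin k) (Fin k ⊕ Fin k) F)) = D i := fun i => fix_of (hσ t) (fun i => by rw [hσ t', e1]) i
      have h4 : ∀ i, (D i).map (Matrix.toLin' (((xx⁻¹ * s t' * xx)⁻¹ * (xx⁻¹ * s t * xx) : GL (Fin k ⊕ Fin k) F) :
          Matrix (Fin k ⊕ Fin k) (Fin k ⊕ Fin k) F)) = D i := fun i => fix_of (hτ t) (fun i => by rw [hτ t', e2]) i
      have h5 := BD_of_fix hP0 hP1 h3
      have h6 := BD_of_fix hP0 hP1 h4
      have e3 : P⁻¹ * ((xx⁻¹ * s t' * xx)⁻¹ * (xx⁻¹ * s t * xx)) * P =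
          (x0 k F)⁻¹ * (P⁻¹ * ((s t' : GL (Fin k ⊕ Fin k) F)⁻¹ * s t) * P) * x0 k F := by
        show P⁻¹ * (((P * x0 k F * P⁻¹)⁻¹ * s t' * (P * x0 k F * P⁻¹))⁻¹ *
          ((P * x0 k F * P⁻¹)⁻¹ * s t * (P * x0 k F * P⁻¹))) * P = _
        group
      rw [e3] at h6
      have h7 : P⁻¹ * ((s t' : GL (Fin k ⊕ Fin k) F)⁻¹ * s t) * P ∈ spGL k F :=
        (spGL k F).mul_mem ((spGL k F).mul_mem ((spGL k F).inv_mem hP)
          ((spGL k F).mul_mem ((spGL k F).inv_mem (s t').2) (s t).2)) hP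
      have h8 := hsc (P := P) (four h2 h7 h5 h6)
      have e4 : P * (P⁻¹ * ((s t' : GL (Fin k ⊕ Fin k) F)⁻¹ * s t) * P) * P⁻¹ =
          (s t' : GL (Fin k ⊕ Fin k) F)⁻¹ * s t := by group
      rw [e4] at h8
      apply Subtype.ext
      rw [← hs t, ← hs t', m.π_eq_iff]
      exact ⟨_, h8, by group⟩
    have h9 := Nat.card_le_card_of_injective _ hinj
    rw [Nat.card_prod, Nat.card_perm, Nat.card_fin] at h9
    exact h9
  -- the contradiction
  let i : Fin k := ⟨0, by omega⟩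
  let j : Fin k := ⟨1, by omega⟩
  have hij : i ≠ j := by
    intro e
    have := congrArg Fin.val e
    simp [i, j] at this
  obtain ⟨sa, ha, ha'⟩ := hmem (ss i)
  obtain ⟨sb, hb, hb'⟩ := hmem (tt hij)
  obtain ⟨sd, hd, hd'⟩ := hmem (tt hij.symm)
  refine kill_small h hxA hcard ha' hb' ha' hd' ?_
  rw [← map_commutatorElement, ← map_commutatorElement, ← map_mul, ← map_mul, Ne, m.π_eq_iff]
  rintro ⟨z, hz, e⟩
  let g1 : GL (Fin k) F := ⁅(ss i : GL (Fin k) F), tt hij⁆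
  let g2 : GL (Fin k) F := ⁅(ss i : GL (Fin k) F), tt hij.symm⁆
  have e1 : P * lv (g1 * g2) * P⁻¹ = P * lv (g2 * g1) * P⁻¹ * z := by
    have e2 : ∀ g g' : GL (Fin k) F, P * lv (g * g') * P⁻¹ = (P * lv g * P⁻¹) * (P * lv g' * P⁻¹) := by
      intro g g'
      rw [map_mul]
      group
    have e3 : ∀ g g' : GL (Fin k) F, P * lv ⁅g, g'⁆ * P⁻¹ = ⁅P * lv g * P⁻¹, P * lv g' * P⁻¹⁆ := by
      intro g g'
      rw [map_commutatorElement, commutatorElement_def, commutatorElement_def]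
      group
    rw [e2, e2, e3, e3, ← ha, ← hb, ← hd]
    exact e
  have e2 : lv (g1 * g2) = lv (g2 * g1) * (P⁻¹ * z * P) := by
    have e3 := congrArg (fun g => P⁻¹ * g * P) e1
    have e4 : ∀ g : GL (Fin k ⊕ Fin k) F, P⁻¹ * (P * g * P⁻¹) * P = g := fun g => by group
    simp only [e4] at e3
    rw [e3]
    group
  have hz2 := hsc (P := P⁻¹) hz
  rw [inv_inv] at hz2
  obtain ⟨c, hc⟩ := (mem_scalars_iff _).1 hz2
  have e3 : ((lv (g1 * g2) : GL (Fin k ⊕ Fin k) F) : Matrix (Fin k ⊕ Fin k) (Fin k ⊕ Fin k) F) =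
      (c : F) • ((lv (g2 * g1) : GL (Fin k ⊕ Fin k) F) : Matrix (Fin k ⊕ Fin k) (Fin k ⊕ Fin k) F) := by
    rw [e2, Units.val_mul, hc, mul_smul_comm, mul_one]
  rw [lv_val, lv_val, Matrix.fromBlocks_smul, Matrix.fromBlocks_inj] at e3
  have e4 := e3.1
  rw [Units.val_mul, Units.val_mul, comm_val hij, comm_val' hij.symm] at e4
  exact not_comm h2 hij _ e4

end Cfsg.Agent.H447.EP
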